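import Mathlib
import Cfsg.Agent.Base
import Cfsg.Agent.Lib.FGS83.Meta2
import Cfsg.Agent.Lib.BG4.Metacyclic
import Cfsg.Agent.Lib.PGroup.Frattini
import Cfsg.Agent.Lib.Fusion.MetaChar
import Cfsg.Agent.S0572

/-!
# Bicyclic `2`-groups that are not metacyclic
-/

set_option autoImplicit false

namespace H93

open Subgroup Cfsg H83
open scoped commutatorElement

universe u

variable {G : Type u} [Group G]

/-- The subgroup `Φ(G') [G', G]`. -/
def rr (G : Type*) [Group G] : Subgroup G :=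
  sInf {R | (∀ a ∈ commutator G, a * a ∈ R) ∧ ∀ a ∈ commutator G, ∀ g : G, ⁅g, a⁆ ∈ R}

theorem comm_mem (g h : G) : ⁅g, h⁆ ∈ commutator G :=
  commutator_mem_commutator (mem_top _) (mem_top _)

theorem sq_mem_rr {a : G} (ha : a ∈ commutator G) : a * a ∈ rr G :=
  mem_sInf.2 fun _ h => h.1 a ha

theorem comm_mem_rr {a : G} (ha : a ∈ commutator G) (g : G) : ⁅g, a⁆ ∈ rr G :=
  mem_sInf.2 fun _ h => h.2 a ha g

theorem comm_mem_rr' {a : G} (ha : a ∈ commutator G) (g : G) : ⁅a, g⁆ ∈ rr G :=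
  commutatorElement_inv g a ▸ inv_mem (comm_mem_rr ha g)

theorem rr_le {R : Subgroup G} (h1 : ∀ a ∈ commutator G, a * a ∈ R)
    (h2 : ∀ a ∈ commutator G, ∀ g : G, ⁅g, a⁆ ∈ R) : rr G ≤ R := sInf_le ⟨h1, h2⟩

theorem rr_le_comm : rr G ≤ commutator G :=
  rr_le (fun _ ha => mul_mem ha ha) fun a _ g => comm_mem g a

instance rr_normal : (rr G).Normal := ⟨fun r hr g => by
  have : g * r * g⁻¹ = ⁅g, r⁆ * r := by simp [commutatorElement_def]
  exact this ▸ mul_mem (comm_mem_rr (rr_le_comm hr) g) hr⟩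

theorem comm_le_sup {g h : G} (hg : zpowers g ⊔ zpowers h = ⊤) :
    commutator G ≤ rr G ⊔ zpowers ⁅g, h⁆ := by
  haveI := H5.normal_sup_zpowers (K := rr G) (comm_mem_rr' (comm_mem g h))
  exact commutator_le_of_gens (a := g) (b := h) (c := h) (by rw [hg, top_sup_eq])
    (mem_sup_right (mem_zpowers _)) (mem_sup_right (mem_zpowers _)) (by simp)

theorem rr_dich {g h a : G} (hg : zpowers g ⊔ zpowers h = ⊤) (ha : a ∈ commutator G) :
    a ∈ rr G ∨ a⁻¹ * ⁅g, h⁆ ∈ rr G := by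
  obtain ⟨r, hr, i, rfl⟩ := (H5.mem_sup_zpowers_iff (normalizer_eq_top (rr G) ▸ mem_top _)).1
    (comm_le_sup hg ha)
  have h1 : ((⁅g, h⁆ : G) : G ⧸ rr G) * (⁅g, h⁆ : G) = 1 :=
    (QuotientGroup.eq_one_iff _).2 (sq_mem_rr (comm_mem g h))
  rw [← QuotientGroup.eq_one_iff, ← QuotientGroup.eq, QuotientGroup.mk_mul,
    (QuotientGroup.eq_one_iff _).2 hr, one_mul, QuotientGroup.mk_zpow]
  exact mem_zpowers_invol h1 (zpow_mem_zpowers _ _)

theorem comm_le_sup' {g h a : G} (hg : zpowers g ⊔ zpowers h = ⊤) (ha : a ∈ commutator G)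
    (hn : a ∉ rr G) : commutator G ≤ rr G ⊔ zpowers a := by
  refine (comm_le_sup hg).trans (sup_le le_sup_left (zpowers_le.2 ?_))
  simpa using mul_mem (mem_sup_right (mem_zpowers a))
    (mem_sup_left ((rr_dich hg ha).resolve_left hn) : _ ∈ rr G ⊔ zpowers a)

theorem mul_mem_rr {g h a a' : G} (hg : zpowers g ⊔ zpowers h = ⊤) (ha : a ∈ commutator G)
    (ha' : a' ∈ commutator G) (hn : a ∉ rr G) (hn' : a' ∉ rr G) : a * a' ∈ rr G := by
  have h1 := (rr_dich hg (inv_mem ha)).resolve_left (by simpa using hn)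
  have h2 := (rr_dich hg ha').resolve_left hn'
  simpa only [inv_inv, mul_inv_rev, mul_assoc, mul_inv_cancel_left] using mul_mem h1 (inv_mem h2)

theorem heis_rr {g h : G} (hg : zpowers g ⊔ zpowers h = ⊤) (π : G →* G ⧸ rr G)
    (e : π = QuotientGroup.mk' _) : π ⁅g, h⁆ ∈ center _ ∧ π ⁅g, h⁆ * π ⁅g, h⁆ = 1 ∧
      commutator _ ≤ zpowers (π ⁅g, h⁆) := by
  subst e
  have hπ := QuotientGroup.mk'_surjective (rr G)
  refine ⟨mem_center_iff.2 fun u => ?_, (QuotientGroup.eq_one_iff _).2 (sq_mem_rr (comm_mem g h)), ?_⟩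
  · obtain ⟨u, rfl⟩ := hπ u
    rw [← commutatorElement_eq_one_iff_mul_comm, ← map_commutatorElement]
    exact (QuotientGroup.eq_one_iff _).2 (comm_mem_rr (comm_mem g h) u)
  · have := map_mono (f := QuotientGroup.mk' (rr G)) (comm_le_sup hg)
    rwa [Subgroup.map_sup, QuotientGroup.map_mk'_self, bot_sup_eq, MonoidHom.map_zpowers,
      _root_.commutator_def, map_commutator, map_top_of_surjective _ hπ] at this

theorem normal_of_comm_le {N : Subgroup G} (h : commutator G ≤ N) : N.Normal := ⟨fun r hr g => by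
  have : g * r * g⁻¹ = ⁅g, r⁆ * r := by simp [commutatorElement_def]
  exact this ▸ mul_mem (h (comm_mem g r)) hr⟩

theorem bl_aux (m : ℕ) : ∀ (S : Type u) [Group S] [Finite S], Nat.card S = m → IsPGroup 2 S →
    ∀ (g h : S) (R : Subgroup S), R.Normal → zpowers g ⊔ zpowers h = ⊤ → R ≤ commutator S →
      ¬ commutator S ≤ R → commutator S ≤ R ⊔ zpowers g → (zpowers g).Normal := by
  haveI : Fact (Nat.Prime 2) := ⟨Nat.prime_two⟩
  induction m using Nat.strong_induction_on with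
  | _ m ih =>
    intro S _ _ hm h2 g h R hR hg h1 h3 h4
    by_cases h0 : R = ⊥
    · exact normal_of_comm_le (by simpa [h0] using h4)
    obtain ⟨z, hz, hzc, hz2⟩ := H5.exists_mem_center_orderOf_eq h2 R h0
    have hZn : (zpowers z).Normal := normal_of_le_center (zpowers_le.mpr hzc)
    have hlt : Nat.card (S ⧸ zpowers z) < m := by
      rw [← hm, card_eq_card_quotient_mul_card_subgroup (zpowers z), Nat.card_zpowers, hz2]
      exact lt_mul_of_one_lt_right Nat.card_pos one_lt_two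
    let π := QuotientGroup.mk' (zpowers z)
    have hπ : Function.Surjective π := QuotientGroup.mk'_surjective _
    have hc : (commutator S).map π = commutator _ := by
      rw [_root_.commutator_def, map_commutator, map_top_of_surjective π hπ]; rfl
    have hn := ih _ hlt (S ⧸ zpowers z) rfl (h2.to_quotient _) (π g) (π h) (R.map π)
      (hR.map π hπ) (by
        rw [← MonoidHom.map_zpowers, ← MonoidHom.map_zpowers, ← Subgroup.map_sup, hg,
          map_top_of_surjective π hπ]) (hc ▸ map_mono h1)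
      (fun h5 => h3 (by
        rw [← hc, map_le_iff_le_comap, comap_map_eq, QuotientGroup.ker_mk',
          sup_eq_left.2 (zpowers_le.2 hz)] at h5
        exact h5))
      (by rw [← hc, ← MonoidHom.map_zpowers, ← Subgroup.map_sup]; exact map_mono h4)
    have hN : (zpowers z ⊔ zpowers g).Normal := by
      rw [← comap_mk'_zpowers]; exact hn.comap _
    rcases key_step h2 hzc (by rw [← pow_two, ← hz2, pow_orderOf_eq_one]) (h1 hz) hN
      (g := h) (by rw [sup_assoc, hg, sup_top_eq]) with h5 | h5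
    · rwa [sup_eq_right.mpr (zpowers_le.mpr h5)] at hN
    · exact absurd (h5.trans (zpowers_le.2 hz)) h3

section Fin

variable [Finite G] (h2 : IsPGroup 2 G)
include h2

theorem nak {N : Subgroup G} [N.Normal] (h : commutator G ≤ N ⊔ rr G) : commutator G ≤ N := by
  haveI : Fact (Nat.Prime 2) := ⟨Nat.prime_two⟩
  by_contra hn
  obtain ⟨M, hM, h1, h3, h4, h5⟩ := H5.exists_normal_cocover h2
    (inf_lt_right.2 hn : N ⊓ commutator G < commutator G)
  have h6 : M.relIndex (commutator G) = 2 := by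
    have := card_mul_index (M.subgroupOf (commutator G))
    rw [Nat.card_congr (subgroupOfEquivOfLe h3).toEquiv, h4] at this
    exact Nat.eq_of_mul_eq_mul_left Nat.card_pos this
  have h7 : rr G ≤ M := rr_le
    (fun a ha => mul_self_mem_of_index_two h6 (⟨a, ha⟩ : commutator G))
    fun a ha g => commutatorElement_inv a g ▸ inv_mem (h5 (commutator_mem_commutator ha (mem_top g)))
  have h8 : commutator G ≤ M := fun a ha => by
    obtain ⟨n, hn, r, hr, rfl⟩ := mem_sup_of_normal_left.1 (h ha)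
    exact mul_mem (h1 ⟨hn, (mul_mem_cancel_right (rr_le_comm hr)).1 ha⟩) (h7 hr)
  rw [relIndex_eq_one.2 h8] at h6
  omega

theorem comm_le_of_mem {g h a : G} (hg : zpowers g ⊔ zpowers h = ⊤) (ha : a ∈ commutator G)
    (hn : a ∉ rr G) {N : Subgroup G} [N.Normal] (hN : a ∈ N) : commutator G ≤ N :=
  nak h2 ((comm_le_sup' hg ha hn).trans (sup_le le_sup_right (le_sup_of_le_left (zpowers_le.2 hN))))

theorem mc_of_le {g h : G} (hg : zpowers g ⊔ zpowers h = ⊤)
    (hA : commutator G ≤ rr G ⊔ zpowers g) : MC G := by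
  refine ⟨g, h, ?_, hg⟩
  by_cases h0 : commutator G ≤ rr G
  · exact normal_of_comm_le ((nak h2 (N := ⊥) (by simpa using h0)).trans bot_le)
  · exact bl_aux _ G rfl h2 g h _ rr_normal hg rr_le_comm h0 hA

variable (hm : ¬ MC G) {g h : G} (hg : zpowers g ⊔ zpowers h = ⊤)
include hm hg

theorem mem_rr_of_mem {a : G} (ha : a ∈ zpowers g) (ha' : a ∈ commutator G) : a ∈ rr G := by
  by_contra hn
  exact hm (mc_of_le h2 hg ((comm_le_sup' hg ha' hn).trans
    (sup_le_sup_left (zpowers_le.2 ha) _)))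

theorem comm_notMem_rr : ⁅g, h⁆ ∉ rr G := fun hc =>
  hm (mc_of_le h2 hg ((comm_le_sup hg).trans (sup_le le_sup_left
    (le_sup_of_le_left (zpowers_le.2 hc)))))

theorem sq_notMem_comm (hh : h * h ∈ commutator G) : g * g ∉ commutator G := fun hc => by
  have sq : ∀ u : G, u * u ∈ zpowers u := fun u => mul_mem (mem_zpowers u) (mem_zpowers u)
  have h1 := mem_rr_of_mem h2 hm hg (sq g) hc
  have h3 := mem_rr_of_mem h2 hm (sup_comm (zpowers g) _ ▸ hg) (sq h) hh
  have e : g * h * (g * h) = g * g * ⁅g⁻¹, h⁆ * (h * h) := by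
    simp [commutatorElement_def, mul_assoc]
  have h4 := mem_rr_of_mem h2 hm (g := g * h) (h := h) (gen_of_mem hg
    (by simpa using mul_mem (mem_sup_left (mem_zpowers (g * h)))
          (mem_sup_right (inv_mem (mem_zpowers h)) : _ ∈ zpowers (g * h) ⊔ zpowers h))
    (mem_sup_right (mem_zpowers h))) (sq _) (e ▸ mul_mem (mul_mem hc (comm_mem _ _)) hh)
  rw [e, mul_mem_cancel_right h3, mul_mem_cancel_left h1] at h4
  exact comm_notMem_rr h2 hm (g := g⁻¹) (by rwa [zpowers_inv]) h4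

omit hg in
theorem exists_odd {x y : G} (hb : ∀ g, ∃ i j : ℤ, g = x ^ i * y ^ j) :
    ∃ i j : ℤ, Odd i ∧ Odd j ∧ x ^ i * y ^ j * (x ^ i * y ^ j) ∈ commutator G := by
  have hg : zpowers x ⊔ zpowers y = ⊤ := eq_top_iff.2 fun g _ => by
    obtain ⟨i, j, rfl⟩ := hb g
    exact mul_mem_sup (zpow_mem_zpowers x i) (zpow_mem_zpowers y j)
  have hc := comm_notMem_rr h2 hm hg
  obtain ⟨i, j, hij⟩ := hb ⁅x, y⁆
  obtain ⟨e, a, b, rfl, rfl, hab⟩ := exists_two_pow_mul_odd _ i j rfl (fun h0 => hc (by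
    rw [hij, show i = 0 by omega, show j = 0 by omega]; simp))
  obtain ⟨v, hv⟩ : ∃ v, zpowers (x ^ a * y ^ b) ⊔ zpowers v = ⊤ := by
    rcases hab with h | h
    · refine ⟨y, gen_of_mem hg (zpowers_le.2 ?_ (mem_zpowers_zpow_of_odd h2 x h))
        (mem_sup_right (mem_zpowers y))⟩
      simpa using mul_mem (mem_sup_left (mem_zpowers (x ^ a * y ^ b)))
        (mem_sup_right (inv_mem (zpow_mem_zpowers y b)) : _ ∈ _ ⊔ zpowers y)
    · refine ⟨x, gen_of_mem hg (mem_sup_right (mem_zpowers x))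
        (zpowers_le.2 ?_ (mem_zpowers_zpow_of_odd h2 y h))⟩
      simpa using mul_mem (mem_sup_right (inv_mem (zpow_mem_zpowers x a)) : _ ∈ _ ⊔ zpowers x)
        (mem_sup_left (mem_zpowers (x ^ a * y ^ b)))
  let π := QuotientGroup.mk' (rr G)
  have h1 : ∀ u, π u = 1 ↔ u ∈ rr G := QuotientGroup.eq_one_iff
  obtain ⟨hzc, hz2, hcomm⟩ := heis_rr hg π rfl
  have hno : π ⁅x, y⁆ ∉ zpowers (π (x ^ a * y ^ b)) := fun ⟨k, hk⟩ => by
    have h3 : ((x ^ a * y ^ b) ^ k)⁻¹ * ⁅x, y⁆ ∈ rr G :=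
      QuotientGroup.eq.1 ((map_zpow π _ k).trans hk)
    exact hc ((mul_mem_cancel_left (inv_mem (mem_rr_of_mem h2 hm hv (zpow_mem_zpowers _ k)
      (by simpa using (mul_mem_cancel_right (comm_mem x y)).1 (rr_le_comm h3))))).1 h3)
  rcases e with _ | e
  · exact absurd (by rw [hij]; simp) hno
  have hX := heis_sq_central hzc hz2 hcomm (π x)
  have hY := heis_sq_central hzc hz2 hcomm (π y)
  have hcm : Commute ((π x * π x) ^ a) ((π y * π y) ^ b) :=
    (mem_center_iff.mp (zpow_mem hX a) _).symm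
  have hz : π ⁅x, y⁆ = ((π x * π x) ^ a * (π y * π y) ^ b) ^ 2 ^ e := by
    rw [hcm.mul_pow, hij, map_mul, map_zpow, map_zpow, ← zpow_natCast, ← zpow_natCast, ← zpow_two,
      ← zpow_two, ← zpow_mul, ← zpow_mul, ← zpow_mul, ← zpow_mul]
    congr 2 <;> (push_cast; ring)
  have hw : π (x ^ a * y ^ b) = π x ^ a * π y ^ b := by simp
  have sq : ∀ u : G ⧸ rr G, u * u ∈ zpowers u := fun u => mul_mem (mem_zpowers u) (mem_zpowers u)
  have hno' : ¬ Commute (π x ^ a) (π y ^ b) ∧ π x ^ a * π y ^ b * (π x ^ a * π y ^ b) =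
      (π x * π x) ^ a * (π y * π y) ^ b * π ⁅x, y⁆ := by
    have h3 : π x ^ a * π y ^ b * (π x ^ a * π y ^ b) ≠ (π x * π x) ^ a * (π y * π y) ^ b :=
      fun h3 => hno (by rw [hz, ← h3, hw]; exact pow_mem (sq _) _)
    rw [(Commute.refl _).mul_zpow, (Commute.refl _).mul_zpow] at h3 ⊢
    exact ⟨fun h4 => h3 (h4.symm.mul_mul_mul_comm _ _),
      (heis_mul_sq hzc hz2 hcomm _ _).resolve_left h3⟩
  rcases e with _ | e
  · refine ⟨a, b, Int.not_even_iff_odd.1 fun ⟨k, hk⟩ => hno'.1 ?_,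
      Int.not_even_iff_odd.1 fun ⟨k, hk⟩ => hno'.1 ?_, rr_le_comm ((h1 _).1 ?_)⟩
    · rw [hk, zpow_add, ← (Commute.refl _).mul_zpow]
      exact (mem_center_iff.mp (zpow_mem hX k) _).symm
    · rw [hk, zpow_add, ← (Commute.refl _).mul_zpow]
      exact mem_center_iff.mp (zpow_mem hY k) _
    · rw [map_mul, hw, hno'.2, ← hz2]; congr 1; simpa using hz.symm
  · refine absurd ?_ hno
    have : Commute ((π x * π x) ^ a * (π y * π y) ^ b) (π ⁅x, y⁆) := mem_center_iff.mp hzc _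
    have h4 : (π x ^ a * π y ^ b * (π x ^ a * π y ^ b)) ^ 2 ^ (e + 1) = π ⁅x, y⁆ := by
      rw [hno'.2, this.mul_pow, ← hz, pow_succ', pow_mul, pow_two, hz2, one_pow, mul_one]
    rw [← h4, hw]
    exact pow_mem (sq _) _

end Fin

/-- The elements whose square is a fourth power modulo the derived subgroup. -/
def m3 (G : Type*) [Group G] : Subgroup G :=
  (((powMonoidHom 4).range.comap (powMonoidHom 2) : Subgroup (Abelianization G))).comap
    Abelianization.of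

theorem of_eq_one_iff {a : G} : Abelianization.of a = 1 ↔ a ∈ commutator G :=
  QuotientGroup.eq_one_iff a

theorem mem_m3 {g : G} : g ∈ m3 G ↔ ∃ h : G, Abelianization.of h ^ 4 = Abelianization.of g ^ 2 :=
  ⟨fun ⟨h, e⟩ => by obtain ⟨h, rfl⟩ := QuotientGroup.mk_surjective h; exact ⟨h, e⟩,
    fun ⟨h, e⟩ => ⟨_, e⟩⟩

theorem mem_m3_of_sq {g : G} (h : g * g ∈ commutator G) : g ∈ m3 G :=
  mem_m3.2 ⟨1, by rw [pow_two, ← map_mul, of_eq_one_iff.2 h]; simp⟩

theorem sq_mem_m3 (g : G) : g * g ∈ m3 G := mem_m3.2 ⟨g, by rw [map_mul, ← pow_two, ← pow_mul]⟩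

theorem comm_le_m3 : commutator G ≤ m3 G := fun _ ha => mem_m3_of_sq (mul_mem ha ha)

theorem map_mem_m3 {H : Type*} [Group H] (f : G →* H) {g : G} (h : g ∈ m3 G) : f g ∈ m3 H := by
  obtain ⟨k, e⟩ := mem_m3.1 h
  exact mem_m3.2 ⟨f k, by simpa using congrArg (Abelianization.map f) e⟩

instance m3_normal : (m3 G).Normal := normal_of_comm_le comm_le_m3

/-- A non-metacyclic `2`-group with the properties of a bicyclic one. -/
structure BC (x b : G) : Prop where
  pg : IsPGroup 2 G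
  nm : ¬ MC G
  ab : ∀ u ∈ commutator G, ∀ v ∈ commutator G, u * v = v * u
  gen : zpowers x ⊔ zpowers b = ⊤
  bb : b * b ∈ commutator G
  mc : ∀ g ∉ m3 G, IsMetacyclic (commutator G ⊔ zpowers g : Subgroup G)

theorem mem_comm_sup {x g : G} :
    g ∈ commutator G ⊔ zpowers x ↔ Abelianization.of g ∈ zpowers (Abelianization.of x) := by
  rw [← MonoidHom.map_zpowers, ← mem_comap, comap_map_eq, Abelianization.ker_of, sup_comm]

theorem exists_of_gen {x b : G} (hg : zpowers x ⊔ zpowers b = ⊤) (g : G) :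
    ∃ i j : ℤ, Abelianization.of g = Abelianization.of x ^ i * Abelianization.of b ^ j := by
  have h1 : Abelianization.of g ∈ zpowers (Abelianization.of x) ⊔ zpowers (Abelianization.of b) := by
    rw [← MonoidHom.map_zpowers, ← MonoidHom.map_zpowers, ← Subgroup.map_sup, hg]
    exact ⟨g, trivial, rfl⟩
  obtain ⟨_, ⟨i, rfl⟩, _, ⟨j, rfl⟩, e⟩ := mem_sup.1 h1
  exact ⟨i, j, e.symm⟩

theorem isMetacyclic_sup [Finite G] (h2 : IsPGroup 2 G) (hm : ¬ MC G) {x y : G}
    (hb : ∀ g, ∃ i j : ℤ, g = x ^ i * y ^ j) (hxy : x * y * (x * y) ∈ commutator G) :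
    IsMetacyclic (commutator G ⊔ zpowers x : Subgroup G) := by
  have hg : zpowers x ⊔ zpowers (x * y) = ⊤ := eq_top_iff.2 fun g _ => by
    obtain ⟨i, j, rfl⟩ := hb g
    refine mul_mem (mem_sup_left (zpow_mem_zpowers x i)) (zpow_mem ?_ j)
    simpa using mul_mem (mem_sup_left (inv_mem (mem_zpowers x)) : _ ∈ _ ⊔ zpowers (x * y))
      (mem_sup_right (mem_zpowers (x * y)))
  have hx := sq_notMem_comm h2 hm hg hxy
  have e : Abelianization.of y ^ (2 : ℤ) = Abelianization.of x ^ (-2 : ℤ) := by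
    have := of_eq_one_iff.2 hxy
    rw [map_mul, map_mul, mul_mul_mul_comm] at this
    rw [zpow_neg, zpow_two, zpow_two, eq_inv_iff_mul_eq_one, mul_comm, this]
  have hy2 : y ^ (2 : ℤ) ∈ commutator G ⊔ zpowers x := by
    rw [mem_comm_sup, map_zpow, e]; exact zpow_mem_zpowers _ _
  have hy : y ∉ commutator G ⊔ zpowers x := fun hy => hm ⟨x, x, by
    have : zpowers x = ⊤ := frattini_nongenerating (top_le_iff.1 (hg ▸ sup_le le_sup_left
      (zpowers_le.2 (mul_mem (mem_sup_left (mem_zpowers x)) (sup_comm (frattini G) _ ▸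
        sup_le_sup_right (H5.commutator_le_frattini (hp := ⟨Nat.prime_two⟩) h2) _ hy)))))
    exact ⟨this ▸ inferInstance, by rw [this, top_sup_eq]⟩⟩
  by_contra hn
  obtain ⟨i, j, hi, -, h3⟩ := exists_odd (h2.to_subgroup _) (fun h => hn h.isMetacyclic)
    (x := ⟨x, mem_sup_right (mem_zpowers x)⟩) (y := ⟨_, hy2⟩) (fun g => by
      obtain ⟨i, j, e⟩ := hb g
      have h3 : y ^ j ∈ commutator G ⊔ zpowers x :=
        (mul_mem_cancel_left (mem_sup_right (zpow_mem_zpowers x i))).1 (e ▸ g.2)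
      obtain ⟨k, rfl⟩ := H5.dvd_of_zpow_mem Nat.prime_two hy (by simpa using hy2) h3
      exact ⟨i, k, Subtype.ext (by simpa [zpow_mul] using e)⟩)
  have h4 := Abelianization.commutator_subset_ker (Abelianization.of.comp (Subgroup.subtype _)) h3
  simp only [MonoidHom.mem_ker, map_mul, map_zpow, MonoidHom.comp_apply, coe_subtype, e] at h4
  refine hx (of_eq_one_iff.1 (eq_one_of_zpow_odd (G := Abelianization G) (h2.to_quotient _)
    (hi.sub_even (even_two_mul j)) ?_))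
  rw [← h4, map_mul, ← zpow_two, ← zpow_mul, ← zpow_mul, ← zpow_add, ← zpow_add]
  congr 1; ring

theorem exists_bc [Finite G] (h2 : IsPGroup 2 G) (hm : ¬ IsMetacyclic G) {x y : G}
    (hb : ∀ g, ∃ i j : ℤ, g = x ^ i * y ^ j) : ∃ x b : G, BC x b := by
  have hm' : ¬ MC G := fun h => hm h.isMetacyclic
  obtain ⟨i, j, hi, hj, h⟩ := exists_odd h2 hm' hb
  obtain ⟨k, hk⟩ := mem_zpowers_iff.1 (mem_zpowers_zpow_of_odd h2 x hi)
  obtain ⟨l, hl⟩ := mem_zpowers_iff.1 (mem_zpowers_zpow_of_odd h2 y hj)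
  generalize x ^ i = u at h hk
  generalize y ^ j = v at h hl
  subst hk hl
  replace hb : ∀ g, ∃ i j : ℤ, g = u ^ i * v ^ j := fun g =>
    let ⟨i, j, e⟩ := hb g; ⟨k * i, l * j, by rw [e, zpow_mul, zpow_mul]⟩
  have h1 := isMetacyclic_sup h2 hm' hb h
  have h3 := isMetacyclic_sup h2 hm' (x := v) (y := u) (fun g =>
    let ⟨i, j, e⟩ := hb g⁻¹; ⟨-j, -i, by rw [← inv_inv g, e]; group⟩)
    (by simpa [mul_assoc] using (inferInstance : (commutator G).Normal).conj_mem _ h v)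
  have hg : zpowers u ⊔ zpowers (u * v) = ⊤ := eq_top_iff.2 fun g _ => by
    obtain ⟨i, j, rfl⟩ := hb g
    refine mul_mem (mem_sup_left (zpow_mem_zpowers u i)) (zpow_mem ?_ j)
    simpa using mul_mem (mem_sup_left (inv_mem (mem_zpowers u)) : _ ∈ _ ⊔ zpowers (u * v))
      (mem_sup_right (mem_zpowers (u * v)))
  refine ⟨u, u * v, h2, hm', fun a ha c hc => ?_, hg, h, fun g hg => ?_⟩
  · have := Agent.S0572.result (zpowers u) (zpowers v) fun g =>
      let ⟨i, j, e⟩ := hb g; ⟨_, zpow_mem_zpowers u i, _, zpow_mem_zpowers v j, e⟩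
    exact commutatorElement_eq_one_iff_mul_comm.1
      (mem_bot.1 (this ▸ commutator_mem_commutator ha hc))
  · obtain ⟨i, j, rfl⟩ := hb g
    have e : Abelianization.of u * Abelianization.of u =
        (Abelianization.of v * Abelianization.of v)⁻¹ := by
      rw [eq_inv_iff_mul_eq_one, mul_mul_mul_comm, ← map_mul, ← map_mul, of_eq_one_iff.2 h]
    rcases Int.even_or_odd' j with ⟨j, rfl | rfl⟩
    · refine H48.isMetacyclic_of_le h1 (sup_le le_sup_left (zpowers_le.2 (mem_comm_sup.2 ?_)))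
      rw [map_mul, map_zpow, map_zpow, zpow_mul, zpow_two, inv_eq_iff_eq_inv.1 e.symm]
      exact mul_mem (zpow_mem_zpowers _ _)
        (zpow_mem (inv_mem (mul_mem (mem_zpowers _) (mem_zpowers _))) _)
    rcases Int.even_or_odd' i with ⟨i, rfl | rfl⟩
    · refine H48.isMetacyclic_of_le h3 (sup_le le_sup_left (zpowers_le.2 (mem_comm_sup.2 ?_)))
      rw [map_mul, map_zpow, map_zpow, zpow_mul, zpow_two, e]
      exact mul_mem (zpow_mem (inv_mem (mul_mem (mem_zpowers _) (mem_zpowers _))) _)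
        (zpow_mem_zpowers _ _)
    · refine absurd (mem_m3.2 ⟨v ^ (j - i), ?_⟩) hg
      rw [map_mul, map_zpow, map_zpow, map_zpow, mul_pow, pow_two, pow_two,
        ← (Commute.refl _).mul_zpow, e, ← zpow_two, ← zpow_neg, ← zpow_mul, ← zpow_add, ← zpow_add,
        ← zpow_natCast, ← zpow_mul]
      congr 1; push_cast; ring

theorem sr_of_isMetacyclic [Finite G] (h2 : IsPGroup 2 G) (h : IsMetacyclic G) : SR 2 G := by
  haveI : Fact (Nat.Prime 2) := ⟨Nat.prime_two⟩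
  intro H K hKH hsq
  haveI := normal_subgroupOf_of_sq_mem hKH hsq
  refine (index_antitone (?_ : frattini H ≤ _)).trans
    (index_frattini_le_of_isMetacyclic (h2.to_subgroup H) (H48.isMetacyclic_subgroup h H))
  rw [H5.frattini_eq_closure_sq (h2.to_subgroup H), closure_le]
  rintro _ ⟨u, rfl⟩
  simpa [pow_two, mem_subgroupOf] using hsq u u.2

theorem cyc_comm {d e : G} (hn : (zpowers d).Normal) (he : e ∈ zpowers d) (g : G) :
    ⁅g, e⁆ ∈ zpowers (d * d) := by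
  obtain ⟨i, rfl⟩ := mem_zpowers_iff.1 he
  obtain ⟨k, hk⟩ := mem_zpowers_iff.1 (hn.conj_mem _ (mem_zpowers d) g)
  obtain ⟨l, hl⟩ := mem_zpowers_iff.1 (hn.conj_mem _ (mem_zpowers d) g⁻¹)
  have h1 : ⁅g, d ^ i⁆ = d ^ ((k - 1) * i) := by
    rw [commutatorElement_def, ← conj_zpow, ← hk]; group
  rw [h1, ← zpow_two]
  rcases Int.even_or_odd' k with ⟨k, rfl | rfl⟩
  · have h2 : d = (d ^ (2 : ℤ)) ^ (k * l) := by
      rw [← zpow_mul, ← mul_assoc, zpow_mul, hk, conj_zpow, hl]; group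
    exact zpowers_le.2 (h2 ▸ zpow_mem_zpowers _ _ :) (zpow_mem_zpowers d _)
  · exact ⟨k * i, by simp only [← zpow_mul]; congr 1; ring⟩

theorem cyc_conj {c : G} (hn : (zpowers c).Normal) (g : G) :
    ∃ k : ℤ, ∀ u ∈ zpowers c, g * u * g⁻¹ = u ^ (2 * k + 1) := by
  obtain ⟨k, hk⟩ := mem_zpowers_iff.1 (cyc_comm hn (mem_zpowers c) g)
  refine ⟨k, fun u hu => ?_⟩
  obtain ⟨i, rfl⟩ := mem_zpowers_iff.1 hu
  rw [← conj_zpow, show g * c * g⁻¹ = ⁅g, c⁆ * c by simp [commutatorElement_def], ← hk, ← zpow_two]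
  group

theorem cyc_invol {c u : G} (hn : (zpowers c).Normal) (hu : u ∈ zpowers c) (h2 : u * u = 1)
    (g : G) : g * u * g⁻¹ = u := by
  obtain ⟨k, hk⟩ := cyc_conj hn g
  rw [hk u hu, zpow_add, zpow_mul, zpow_two, h2]; simp

theorem cyc_eight {c u : G} (hn : (zpowers c).Normal) (hu : u ∈ zpowers c) (h8 : u ^ (8 : ℤ) = 1)
    (g : G) : g * g * u = u * (g * g) := by
  obtain ⟨k, hk⟩ := cyc_conj hn g
  obtain ⟨l, hl⟩ := Int.even_mul_succ_self k
  have h3 : (2 * k + 1) * (2 * k + 1) = 8 * l + 1 := by linear_combination 4 * hl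
  calc _ = g * (g * u * g⁻¹) * g⁻¹ * (g * g) := by group
    _ = _ := by rw [hk u hu, ← conj_zpow, hk u hu, ← zpow_mul, h3, zpow_add, zpow_mul, h8]; simp

namespace BC

variable [Finite G] {x b : G} (h : BC x b)
include h

theorem xx : x * x ∉ commutator G := sq_notMem_comm h.pg h.nm h.gen h.bb

omit [Finite G] in
theorem b_mem : b ∈ m3 G := mem_m3_of_sq h.bb

omit [Finite G] in
theorem of_bb : Abelianization.of b * Abelianization.of b = 1 := by
  rw [← map_mul, of_eq_one_iff.2 h.bb]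

theorem x_notMem : x ∉ m3 G := fun hx => by
  obtain ⟨k, e⟩ := mem_m3.1 hx
  obtain ⟨i, j, hk⟩ := exists_of_gen h.gen k
  refine h.xx (of_eq_one_iff.1 (eq_one_of_zpow_odd (G := Abelianization G) (h.pg.to_quotient _)
    (odd_one.sub_even (even_two_mul i)) ?_))
  have h1 : (Abelianization.of b ^ j) ^ 4 = 1 := by
    rw [← zpow_natCast, ← zpow_mul, mul_comm, show ((4 : ℕ) : ℤ) * j = 2 * (2 * j) by ring, zpow_mul,
      zpow_two, h.of_bb, one_zpow]
  rw [hk, mul_pow, h1, mul_one] at e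
  rw [map_mul, zpow_sub, zpow_one, mul_inv_eq_one, ← zpow_two, ← zpow_mul, zpow_ofNat, ← e,
    ← zpow_natCast, ← zpow_mul]
  congr 1; push_cast; ring

theorem comm_le_fr : commutator G ≤ frattini G :=
  H5.commutator_le_frattini (hp := ⟨Nat.prime_two⟩) h.pg

theorem sq_mem_fr (g : G) : g * g ∈ frattini G :=
  pow_two g ▸ @H5.pow_mem_frattini _ _ 2 _ ⟨Nat.prime_two⟩ h.pg g

omit h in
theorem fr_le_m3 : frattini G ≤ m3 G :=
  H5.frattini_le_of_commutator_le_of_pow_mem (hp := ⟨Nat.prime_two⟩) comm_le_m3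
    fun g => (pow_two g).symm ▸ sq_mem_m3 g

theorem fr_eq : frattini G = commutator G ⊔ zpowers (x * x) := by
  refine le_antisymm (H5.frattini_le_of_commutator_le_of_pow_mem (hp := ⟨Nat.prime_two⟩)
    le_sup_left fun g => ?_) (sup_le h.comm_le_fr (zpowers_le.2 (h.sq_mem_fr x)))
  obtain ⟨i, j, e⟩ := exists_of_gen h.gen g
  rw [mem_comm_sup, map_pow, e, mul_pow, pow_two, pow_two, ← mul_zpow, ← mul_zpow, h.of_bb,
    one_zpow, mul_one, map_mul]
  exact zpow_mem_zpowers _ _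

theorem cases (g : G) : g ∈ frattini G ∨ x⁻¹ * g ∈ frattini G ∨ b⁻¹ * g ∈ frattini G ∨
    (x * b)⁻¹ * g ∈ frattini G := by
  obtain ⟨i, j, e⟩ := exists_of_gen h.gen g
  simp only [h.fr_eq, mem_comm_sup, map_mul, map_inv, e]
  obtain ⟨i, rfl | rfl⟩ := Int.even_or_odd' i <;>
    rcases zpow_eq_one_or_self h.of_bb j with ⟨-, e⟩ | ⟨-, e⟩ <;>
    rw [e] <;> simp only [zpow_add, zpow_mul, zpow_two, zpow_one]
  · simp
  · simp [mul_comm (_ ^ i)]
  · simp [mul_comm (_ ^ i)]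
  · rw [mul_assoc (_ ^ i), mul_comm (_ ^ i), inv_mul_cancel_left]; simp

theorem mul_mem_m3 {g : G} (hg : g ∉ m3 G) : x⁻¹ * g ∈ m3 G := by
  rcases h.cases g with e | e | e | e
  · exact absurd (fr_le_m3 e) hg
  · exact fr_le_m3 e
  · exact absurd ((mul_mem_cancel_left (inv_mem h.b_mem)).1 (fr_le_m3 e)) hg
  · simpa [mul_assoc] using mul_mem h.b_mem (fr_le_m3 e)

theorem mul_mem_fr {t : G} (ht : t ∈ m3 G) (hn : t ∉ frattini G) : b⁻¹ * t ∈ frattini G := by
  rcases h.cases t with e | e | e | e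
  · exact absurd e hn
  · exact absurd (by simpa using (mul_mem_cancel_right ht).1 (fr_le_m3 e)) h.x_notMem
  · exact e
  · exact absurd ((mul_mem_cancel_right h.b_mem).1
      (inv_mem_iff.1 ((mul_mem_cancel_right ht).1 (fr_le_m3 e)))) h.x_notMem

theorem gen_of {g t : G} (hg : g ∉ m3 G) (ht : t ∈ m3 G) (hn : t ∉ frattini G) :
    zpowers g ⊔ zpowers t = ⊤ := by
  refine frattini_nongenerating (top_le_iff.1 ?_)
  have hb : b ∈ zpowers g ⊔ zpowers t ⊔ frattini G := by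
    simpa using mul_mem (mem_sup_left (mem_sup_right (mem_zpowers t)))
      (mem_sup_right (inv_mem (h.mul_mem_fr ht hn)) : _ ∈ zpowers g ⊔ zpowers t ⊔ frattini G)
  have h3 : m3 G ≤ zpowers g ⊔ zpowers t ⊔ frattini G := fun u hu => by
    by_cases h4 : u ∈ frattini G
    · exact mem_sup_right h4
    · simpa using mul_mem hb (mem_sup_right (h.mul_mem_fr hu h4))
  refine h.gen ▸ sup_le (zpowers_le.2 ?_) (zpowers_le.2 hb)
  simpa using mul_mem (mem_sup_left (mem_sup_left (mem_zpowers g))) (inv_mem (h3 (h.mul_mem_m3 hg)))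

theorem base {g t : G} (hg : g ∉ m3 G) (ht : t * t ∈ commutator G) (hn : t ∉ frattini G) :
    BC g t := ⟨h.pg, h.nm, h.ab, h.gen_of hg (mem_m3_of_sq ht) hn, ht, h.mc⟩

theorem fr_le_sup : frattini G ≤ commutator G ⊔ zpowers x := h.fr_eq ▸
  sup_le_sup_left (zpowers_le.2 (mul_mem (mem_zpowers x) (mem_zpowers x))) _

theorem b_notMem : b ∉ commutator G ⊔ zpowers x := fun hb => h.nm ⟨x, x, by
  have : zpowers x = ⊤ := frattini_nongenerating (top_le_iff.1 (h.gen ▸ sup_le le_sup_left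
    (zpowers_le.2 (sup_comm (frattini G) _ ▸ sup_le_sup_right h.comm_le_fr _ hb))))
  exact ⟨this ▸ inferInstance, by rw [this, top_sup_eq]⟩⟩

theorem b_notMem_fr : b ∉ frattini G := fun hb => h.b_notMem (h.fr_le_sup hb)

theorem index_sup : (commutator G ⊔ zpowers x).index = 2 := by
  rw [← relIndex_top_right, ← H5.relIndex_sup_zpowers Nat.prime_two (K := commutator G ⊔ zpowers x)
    (x := b) (by haveI := normal_of_comm_le (le_sup_left : _ ≤ commutator G ⊔ zpowers x)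
                 exact normalizer_eq_top (commutator G ⊔ zpowers x) ▸ mem_top b)
    h.b_notMem (mem_sup_left (pow_two b ▸ h.bb)), sup_assoc, h.gen, sup_top_eq]

theorem mem_fr_of {g : G} (h1 : g ∈ commutator G ⊔ zpowers x) (h3 : g ∈ m3 G) :
    g ∈ frattini G := by
  by_contra hn
  exact h.b_notMem (inv_mem_iff.1 ((mul_mem_cancel_right h1).1 (h.fr_le_sup (h.mul_mem_fr h3 hn))))

theorem sr : SR 2 (commutator G ⊔ zpowers x : Subgroup G) :=
  sr_of_isMetacyclic (h.pg.to_subgroup _) (h.mc x h.x_notMem)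

theorem c_notMem : ⁅x, b⁆ ∉ rr G := comm_notMem_rr h.pg h.nm h.gen

theorem comm_fr {g : G} (hg : g ∈ frattini G) (u : G) : ⁅u, g⁆ ∈ rr G := by
  obtain ⟨h1, h2, h3⟩ := heis_rr h.gen _ rfl
  have h4 : frattini G ≤ (center _).comap (QuotientGroup.mk' (rr G)) := by
    rw [H5.frattini_eq_closure_sq h.pg, closure_le]
    rintro _ ⟨u, rfl⟩
    simpa [pow_two] using heis_sq_central h1 h2 h3 (u : G ⧸ rr G)
  rw [← QuotientGroup.eq_one_iff]
  exact commutatorElement_eq_one_iff_mul_comm.2 (mem_center_iff.1 (h4 hg) (u : G ⧸ rr G))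

/-! ### The derived subgroup as a module -/

omit [Finite G] in
theorem isComm : IsMulCommutative (commutator G) := ⟨⟨fun u v => Subtype.ext (h.ab _ u.2 _ v.2)⟩⟩

omit [Finite G] in
theorem conj_eq {g a : G} (hg : g ∈ commutator G) (ha : a ∈ commutator G) : g * a * g⁻¹ = a := by
  rw [h.ab g hg a ha, mul_inv_cancel_right]

omit [Finite G] in
theorem comm_conj {a : G} (ha : a ∈ commutator G) (g k : G) :
    ⁅g, k * a * k⁻¹⁆ = k * ⁅g, a⁆ * k⁻¹ := by
  have h1 := h.conj_eq (comm_mem k⁻¹ g) ((inferInstance : (commutator G).Normal).conj_mem _ ha g)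
  calc _ = k * (⁅k⁻¹, g⁆ * (g * a * g⁻¹) * ⁅k⁻¹, g⁆⁻¹ * a⁻¹) * k⁻¹ := by
        simp only [commutatorElement_def]; group
    _ = _ := by rw [h1]; rfl

omit [Finite G] in
theorem comm_mul {a a' : G} (ha : a ∈ commutator G) (g : G) : ⁅g, a * a'⁆ = ⁅g, a⁆ * ⁅g, a'⁆ := by
  rw [← h.conj_eq ha (comm_mem g a')]; simp only [commutatorElement_def]; group

/-- Commutation with `g` as an endomorphism of the derived subgroup. -/
def dl (h : BC x b) (g : G) : commutator G →* commutator G :=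
  MonoidHom.mk' (fun a => ⟨⁅g, a⁆, comm_mem _ _⟩) fun a _ => Subtype.ext (h.comm_mul a.2 g)

omit [Finite G] in
theorem coe_dl (g : G) (a : commutator G) : (h.dl g a : G) = ⁅g, (a : G)⁆ := rfl

omit [Finite G] in
theorem dl_conj (g k : G) (a : commutator G) :
    h.dl g (MulAut.conjNormal k a) = MulAut.conjNormal k (h.dl g a) :=
  Subtype.ext (h.comm_conj a.2 g k)

theorem eq_top (N : Subgroup (commutator G)) (hN : ∀ g : G, ∀ a ∈ N, MulAut.conjNormal g a ∈ N)
    {a : commutator G} (ha : (a : G) ∉ rr G) (haN : a ∈ N) (u : commutator G) : u ∈ N := by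
  haveI : (N.map (commutator G).subtype).Normal := ⟨by
    rintro _ ⟨v, hv, rfl⟩ g
    exact ⟨_, hN g v hv, rfl⟩⟩
  obtain ⟨v, hv, e⟩ := comm_le_of_mem h.pg h.gen a.2 ha (N := N.map (commutator G).subtype)
    ⟨a, haN, rfl⟩ u.2
  rwa [← Subtype.ext e]

omit [Finite G] h in
theorem rr_ind (N : Subgroup (commutator G)) (h1 : ∀ a, a * a ∈ N)
    (h2 : ∀ g : G, ∀ a : commutator G, MulAut.conjNormal g a * a⁻¹ ∈ N) {u : commutator G}
    (hu : (u : G) ∈ rr G) : u ∈ N := by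
  obtain ⟨v, hv, e⟩ := rr_le (R := N.map (commutator G).subtype)
    (fun a ha => ⟨_, h1 ⟨a, ha⟩, rfl⟩) (fun a ha g => ⟨_, h2 g ⟨a, ha⟩, rfl⟩) hu
  rwa [← Subtype.ext e]

theorem exists_d : ∃ d : G, (zpowers d).Normal ∧ (∀ a ∈ commutator G, ⁅x, a⁆ ∈ zpowers d) ∧
    (∀ r ∈ rr G, ⁅x, r⁆ ∈ zpowers (d * d)) ∧ d ∈ zpowers ⁅x, ⁅x, b⁆⁆ := by
  haveI := H48.isCyclic_commutator_of_isMetacyclic' (h.mc x h.x_notMem)
  obtain ⟨d, hd⟩ := (Subgroup.isCyclic_iff_exists_zpowers_eq_top _).1 (Subgroup.isCyclic_of_le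
    (H' := ⁅commutator G ⊔ zpowers x, commutator G ⊔ zpowers x⁆)
    (H := (h.dl x).range.map (commutator G).subtype) (by
      rintro _ ⟨_, ⟨a, rfl⟩, rfl⟩
      exact commutator_mem_commutator (mem_sup_right (mem_zpowers x)) (mem_sup_left a.2)))
  have hn : (zpowers d).Normal := hd ▸ ⟨by
    rintro _ ⟨_, ⟨a, rfl⟩, rfl⟩ g
    exact ⟨_, ⟨_, h.dl_conj x g a⟩, rfl⟩⟩
  have h1 : ∀ a ∈ commutator G, ⁅x, a⁆ ∈ zpowers d := fun a ha => hd ▸ ⟨_, ⟨⟨a, ha⟩, rfl⟩, rfl⟩
  have sq : ∀ e ∈ zpowers d, e * e ∈ zpowers (d * d) := by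
    rintro _ ⟨k, rfl⟩
    exact ⟨k, (Commute.refl d).mul_zpow k⟩
  have h2 : ∀ r ∈ rr G, ⁅x, r⁆ ∈ zpowers (d * d) := fun r hr =>
    rr_ind (((zpowers (d * d)).subgroupOf _).comap (h.dl x)) (fun a => by
      rw [mem_comap, map_mul]; exact sq _ (h1 _ a.2)) (fun g a => by
      rw [mem_comap, map_mul, map_inv, h.dl_conj]; exact cyc_comm hn (h1 _ a.2) g)
      (u := ⟨r, rr_le_comm hr⟩) hr
  refine ⟨d, hn, h1, h2, ?_⟩
  obtain ⟨k, hk⟩ := mem_zpowers_iff.1 (h1 _ (comm_mem x b))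
  rcases Int.even_or_odd k with ⟨k, rfl⟩ | hk'
  · haveI : (zpowers (d * d)).Normal := ⟨fun e he g => by
      simpa [commutatorElement_def] using
        mul_mem (cyc_comm hn (zpowers_le.2 (mul_mem (mem_zpowers d) (mem_zpowers d)) he) g) he⟩
    have h3 : ∀ a ∈ commutator G, ⁅x, a⁆ ∈ zpowers (d * d) := fun a ha =>
      h.eq_top (((zpowers (d * d)).subgroupOf _).comap (h.dl x)) (fun g a ha => by
        rw [mem_comap, h.dl_conj]; exact this.conj_mem _ ha g) (a := ⟨_, comm_mem x b⟩) h.c_notMem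
        ⟨k, by simp only [coe_subtype, h.coe_dl, ← hk, zpow_add, (Commute.refl d).mul_zpow]⟩ ⟨a, ha⟩
    obtain ⟨_, ⟨a, rfl⟩, e⟩ := hd ▸ mem_zpowers d
    obtain ⟨l, hl⟩ := mem_zpowers_iff.1 (h3 _ a.2)
    rw [eq_one_of_zpow_odd h.pg (x := d) (odd_one.sub_even (even_two_mul l)) (by
      rw [zpow_sub, zpow_one, zpow_mul, zpow_two, hl, mul_inv_eq_one]; exact e.symm)]
    exact one_mem _
  · exact hk ▸ mem_zpowers_zpow_of_odd h.pg d hk'

theorem bb_mem : b * b ∈ rr G := mem_rr_of_mem h.pg h.nm (sup_comm (zpowers x) _ ▸ h.gen)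
  (mul_mem (mem_zpowers b) (mem_zpowers b)) h.bb

open scoped IsMulCommutative in
theorem exists_kappa : ∃ k : ℤ, ∀ a ∈ commutator G, ⁅b, a⁆ * (a * a) = ⁅x, a * a⁆ ^ k := by
  haveI := h.isComm
  obtain ⟨d, -, -, h2, l, hl⟩ := h.exists_d
  obtain ⟨k, hk⟩ := mem_zpowers_iff.1 (h2 _ h.bb_mem)
  refine ⟨l * k, fun a ha => ?_⟩
  have := h.eq_top ((h.dl b * powMonoidHom 2).eqLocus
    ((zpowGroupHom (l * k)).comp ((h.dl x).comp (powMonoidHom 2)))) (fun g a ha => by
      have h3 : h.dl b a * a ^ 2 = h.dl x (a ^ 2) ^ (l * k) := ha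
      show h.dl b _ * _ ^ 2 = h.dl x (_ ^ 2) ^ (l * k)
      rw [← map_pow, h.dl_conj, h.dl_conj, ← map_mul, h3, map_zpow])
    (a := ⟨_, comm_mem x b⟩) h.c_notMem (Subtype.ext (by
      show ⁅b, ⁅x, b⁆⁆ * ⁅x, b⁆ ^ 2 = ⁅x, ⁅x, b⁆ ^ 2⁆ ^ (l * k)
      rw [pow_two, ← mul_assoc, h.ab _ (mul_mem (comm_mem _ _) (comm_mem _ _)) _ (comm_mem x b),
        h.comm_mul (comm_mem x b), zpow_mul, (Commute.refl _).mul_zpow, show _ ^ l = d from hl, hk]
      simp only [commutatorElement_def]; group)) ⟨a, ha⟩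
  simpa [pow_two, h.coe_dl] using congrArg Subtype.val
    (this : h.dl b _ * _ ^ 2 = h.dl x (_ ^ 2) ^ (l * k))

omit h [Finite G] in
theorem comm_mul_left (g k a : G) : ⁅g * k, a⁆ = ⁅g, ⁅k, a⁆⁆ * ⁅k, a⁆ * ⁅g, a⁆ := by
  simp only [commutatorElement_def]; group

theorem centralizes {w g : G} (hw : w ∈ commutator G) (h2 : w * w = 1) (hg : g ∈ m3 G) :
    g * w = w * g := by
  have h1 : frattini G ≤ centralizer {w} := by
    obtain ⟨d, hn, h1, -⟩ := h.exists_d
    refine h.fr_eq ▸ sup_le (fun a ha => mem_centralizer_singleton_iff.2 (h.ab a ha w hw))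
      (zpowers_le.2 (mem_centralizer_singleton_iff.2 ?_))
    have h3 : ⁅x, w⁆ * ⁅x, w⁆ = 1 := by rw [← h.comm_mul hw, h2, commutatorElement_one_right]
    rw [← commutatorElement_eq_one_iff_mul_comm, comm_mul_left, mul_assoc, h3, mul_one,
      commutatorElement_def, cyc_invol hn (h1 w hw) h3, mul_inv_cancel]
  by_cases h3 : g ∈ frattini G
  · exact mem_centralizer_singleton_iff.1 (h1 h3)
  obtain ⟨k, hk⟩ := h.exists_kappa
  have h4 : b ∈ centralizer {w} := mem_centralizer_singleton_iff.2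
    (commutatorElement_eq_one_iff_mul_comm.1 (by simpa [h2] using hk w hw))
  simpa using mem_centralizer_singleton_iff.1 (mul_mem h4 (h1 (h.mul_mem_fr hg h3)))

/-- The elements commutating the derived subgroup into `M`. -/
def cen (h : BC x b) (M : Subgroup G) : Subgroup G where
  carrier := {g | ∀ a ∈ commutator G, ⁅g, a⁆ ∈ M}
  one_mem' := fun a _ => by simp
  mul_mem' := fun {g k} hg hk a ha =>
    comm_mul_left g k a ▸ mul_mem (mul_mem (hg _ (comm_mem _ _)) (hk a ha)) (hg a ha)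
  inv_mem' := fun {g} hg a ha => by
    have := inv_mem (hg _ ((inferInstance : (commutator G).Normal).conj_mem' _ ha g))
    convert this using 1
    simp only [commutatorElement_def]; group

theorem fr_le_cen {M : Subgroup G} (hM : x * x ∈ h.cen M) : frattini G ≤ h.cen M :=
  h.fr_eq ▸ sup_le (fun a ha u hu => by
    rw [commutatorElement_eq_one_iff_mul_comm.2 (h.ab a ha u hu)]; exact one_mem _)
    (zpowers_le.2 hM)

theorem exists_sq {t a : G} (ht : t ∈ m3 G) (hn : t ∉ frattini G) (ha : a ∈ commutator G) :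
    ∃ r ∈ rr G, ⁅t, a⁆ * (a * a) = r * r := by
  obtain ⟨d, hn', h1, h2, h3⟩ := h.exists_d
  have sq : ∀ e ∈ zpowers d, e * e ∈ zpowers (d * d) := by
    rintro _ ⟨k, rfl⟩
    exact ⟨k, (Commute.refl d).mul_zpow k⟩
  have h4 := h.fr_le_cen (M := zpowers (d * d)) (fun u hu => by
    rw [comm_mul_left, mul_assoc]
    exact mul_mem (cyc_comm hn' (h1 u hu) x) (sq _ (h1 u hu))) (h.mul_mem_fr ht hn) a ha
  obtain ⟨k, hk⟩ := h.exists_kappa
  obtain ⟨i, hi⟩ : ⁅t, a⁆ * (a * a) ∈ zpowers (d * d) := by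
    rw [← mul_inv_cancel_left b t, comm_mul_left, mul_assoc, hk a ha]
    exact mul_mem (mul_mem (cyc_comm hn' (zpowers_le.2 (mul_mem (mem_zpowers d) (mem_zpowers d)) h4)
      b) h4) (zpow_mem (h2 _ (sq_mem_rr ha)) k)
  exact ⟨d ^ i, zpow_mem (zpowers_le.2 (comm_mem_rr (comm_mem x b) x) h3) i,
    hi.symm.trans ((Commute.refl d).mul_zpow i)⟩

theorem comm_eq_sq {t a : G} (ht : t ∈ m3 G) (hn : t ∉ frattini G) (ha : a ∈ commutator G) :
    ∃ r ∈ rr G, ⁅t, a⁆ = r * a⁻¹ * (r * a⁻¹) := by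
  obtain ⟨r, hr, e⟩ := h.exists_sq ht hn ha
  refine ⟨r, hr, ?_⟩
  rw [eq_mul_inv_of_mul_eq e, mul_assoc r a⁻¹, ← mul_assoc a⁻¹,
    h.ab _ (inv_mem ha) r (rr_le_comm hr)]
  group

open scoped IsMulCommutative in
theorem range_dl {t : G} (ht : t ∈ m3 G) (hn : t ∉ frattini G) :
    haveI := h.isComm
    (h.dl t).range = (powMonoidHom 2).range := by
  haveI := h.isComm
  refine le_antisymm ?_ ?_
  · rintro _ ⟨a, rfl⟩
    obtain ⟨r, hr, e⟩ := h.comm_eq_sq ht hn a.2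
    exact ⟨⟨r, rr_le_comm hr⟩ * a⁻¹, Subtype.ext (by simpa [pow_two, h.coe_dl] using e.symm)⟩
  · rintro _ ⟨a, rfl⟩
    obtain ⟨r, hr, e⟩ := h.comm_eq_sq ht hn (comm_mem x b)
    refine h.eq_top ((h.dl t).range.comap (powMonoidHom 2)) (fun g a ⟨u, hu⟩ => ⟨MulAut.conjNormal g u, by
      rw [h.dl_conj, hu]; simp⟩) (a := ⟨r, rr_le_comm hr⟩ * ⟨_, comm_mem x b⟩⁻¹)
      (fun h3 => h.c_notMem (inv_mem_iff.1 ((mul_mem_cancel_left hr).1 h3)))
      ⟨⟨_, comm_mem x b⟩, Subtype.ext (by simpa [pow_two, h.coe_dl] using e)⟩ a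

theorem exists_comm_eq_sq {t a : G} (ht : t ∈ m3 G) (hn : t ∉ frattini G) (ha : a ∈ commutator G) :
    ∃ u ∈ commutator G, ⁅t, u⁆ = a * a := by
  obtain ⟨u, hu⟩ := (h.range_dl ht hn).ge ⟨⟨a, ha⟩, rfl⟩
  exact ⟨u, u.2, by simpa [pow_two, h.coe_dl] using congrArg Subtype.val hu⟩

open scoped IsMulCommutative in
theorem sq_eq_one {t a : G} (ht : t ∈ m3 G) (hn : t ∉ frattini G) (ha : a ∈ commutator G)
    (hc : t * a = a * t) : a * a = 1 := by
  haveI := h.isComm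
  have h1 : (powMonoidHom 2 : commutator G →* commutator G).ker = (h.dl t).ker :=
    eq_of_le_of_card_ge (fun u hu => Subtype.ext (commutatorElement_eq_one_iff_mul_comm.2
      (h.centralizes u.2 (by simpa [pow_two] using congrArg Subtype.val hu) ht))) (by
      have h2 := card_mul_index (h.dl t).ker
      rw [← card_mul_index (powMonoidHom 2 : commutator G →* commutator G).ker, index_ker, index_ker,
        h.range_dl ht hn] at h2
      exact (Nat.eq_of_mul_eq_mul_right Nat.card_pos h2).le)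
  have h2 : (⟨a, ha⟩ : commutator G) ∈ (h.dl t).ker :=
    Subtype.ext (commutatorElement_eq_one_iff_mul_comm.2 hc)
  simpa [pow_two] using congrArg Subtype.val (h1.ge h2)

theorem rr_le_of {t : G} (ht : t ∈ m3 G) (hn : t ∉ frattini G) {M : Subgroup G}
    (h1 : ∀ a ∈ commutator G, a * a ∈ M) (h2 : ⁅t, x * x⁆ ∈ M) : rr G ≤ M := by
  obtain ⟨d, hn', h3, h4, h5⟩ := h.exists_d
  have hc := comm_notMem_rr h.pg h.nm (sup_comm (zpowers x) _ ▸ h.gen_of h.x_notMem ht hn)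
  have h6 : ⁅x, ⁅t, x⁆⁆ ∈ M := by
    have e : ⁅t, x * x⁆ = ⁅t, x⁆ * ⁅x, ⁅t, x⁆⁆ * ⁅t, x⁆ := by
      simp only [commutatorElement_def]; group
    rwa [e, h.ab _ (comm_mem t x) _ (comm_mem _ _), mul_assoc,
      mul_mem_cancel_right (h1 _ (comm_mem t x))] at h2
  have h7 : d ∈ M := by
    have := zpowers_le.2 (h1 _ (zpowers_le.2 (comm_mem _ _) h5))
      (h4 _ (mul_mem_rr h.gen (comm_mem x b) (comm_mem t x) h.c_notMem hc))
    rw [h.comm_mul (comm_mem x b), mul_mem_cancel_right h6] at this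
    exact zpowers_le.2 this h5
  have h8 : ⊤ ≤ h.cen M := h.gen ▸ sup_le (zpowers_le.2 fun a ha => zpowers_le.2 h7 (h3 a ha))
    (zpowers_le.2 fun a ha => by
      obtain ⟨r, hr, e⟩ := h.comm_eq_sq h.b_mem h.b_notMem_fr ha
      exact e ▸ h1 _ (mul_mem (rr_le_comm hr) (inv_mem ha)))
  exact rr_le h1 fun a ha g => h8 (mem_top g) a ha

open scoped IsMulCommutative in
theorem exists_comm_eq {t r : G} (ht : t ∈ m3 G) (hn : t ∉ frattini G) (hr : r ∈ rr G) :
    ∃ g ∈ frattini G, ⁅t, g⁆ = r := by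
  haveI := h.isComm
  obtain ⟨_, hv, rfl⟩ := h.rr_le_of ht hn (M := Subgroup.map (commutator G).subtype
    ((powMonoidHom 2).range ⊔ zpowers ⟨_, comm_mem t (x * x)⟩))
    (fun a ha => ⟨_, mem_sup_left ⟨⟨a, ha⟩, rfl⟩, by simp [pow_two]⟩)
    ⟨_, mem_sup_right (mem_zpowers _), rfl⟩ hr
  obtain ⟨_, ⟨a, rfl⟩, _, ⟨k, rfl⟩, rfl⟩ := mem_sup.1 hv
  obtain ⟨k, rfl | rfl⟩ := Int.even_or_odd' k
  · obtain ⟨u, hu, e⟩ := h.exists_comm_eq_sq ht hn (a * ⟨_, comm_mem t (x * x)⟩ ^ k).2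
    refine ⟨u, h.comm_le_fr hu, e.trans ?_⟩
    rw [← coe_mul, coe_subtype, ← pow_two, mul_pow, powMonoidHom_apply]
    simp only [mul_comm (2 : ℤ), zpow_mul, zpow_ofNat]
  · obtain ⟨u, hu, e⟩ := h.exists_comm_eq_sq ht hn (a * ⟨_, comm_mem t (x * x)⟩ ^ k).2
    refine ⟨u * (x * x), mul_mem (h.comm_le_fr hu) (h.sq_mem_fr x), ?_⟩
    rw [h.comm_mul hu, e, ← coe_mul, coe_subtype, ← pow_two, mul_pow, powMonoidHom_apply]
    simp only [mul_comm (2 : ℤ), zpow_add, zpow_mul, zpow_ofNat, coe_mul, mul_assoc, pow_one]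

end BC

theorem bicyc_eq_defs : True := by
  have := @rr.eq_1.{0}
  have := @rr.eq_def.{0}
  have := @m3.eq_1.{0}
  have := @m3.eq_def.{0}
  have := @BC.dl.eq_1.{0}
  have := @BC.dl.eq_def.{0}
  have := @BC.cen.eq_1.{0}
  have := @BC.cen.eq_def.{0}
  trivial

end H93
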